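import Cfsg.Agent.H901.CA.Exp

/-!
# Logarithms of unipotent unitary elements (helper901, for S3852)
-/

set_option autoImplicit false

namespace Cfsg.Agent.H901.CA

open Finset

variable {R : Type*} [Ring R]

/-- the double centralizer -/
def dc (y : R) : Subring R := Subring.centralizer (Subring.centralizer {y} : Set R)

theorem mem_dc {y x : R} : x ∈ dc y ↔ ∀ c, c * y = y * c → c * x = x * c := by
  rw [dc, Subring.mem_centralizer_iff]
  constructor
  · intro h c hc
    exact h c (Subring.mem_centralizer_iff.2 (by rintro _ rfl; exact hc.symm))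
  · intro h c hc
    exact h c (Subring.mem_centralizer_iff.1 hc y rfl).symm

theorem self_mem (y : R) : y ∈ dc y := mem_dc.2 fun _ h => h

theorem dc_comm {y a b : R} (ha : a ∈ dc y) (hb : b ∈ dc y) : a * b = b * a :=
  mem_dc.1 hb a (mem_dc.1 ha y rfl).symm

/-- the commutative ring -/
@[instance_reducible] def dcRing (y : R) : CommRing (dc y) :=
  { (inferInstance : Ring (dc y)) with mul_comm := fun a b => Subtype.ext (dc_comm a.2 b.2) }

theorem star_mem [StarRing R] {y : R} (h1 : star y * y = 1) (h2 : y * star y = 1) {x : R} (hx : x ∈ dc y) :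
    star x ∈ dc y := by
  rw [mem_dc] at hx ⊢
  intro c hc
  have h3 : star c * y = y * star c := by
    have h4 : star (c * y) = star (y * c) := congrArg star hc
    rw [star_mul, star_mul] at h4
    calc star c * y = (y * star y) * (star c * y) := by rw [h2, one_mul]
      _ = y * (star y * star c) * y := by noncomm_ring
      _ = y * (star c * star y) * y := by rw [h4]
      _ = y * star c * (star y * y) := by noncomm_ring
      _ = y * star c := by rw [h1, mul_one]
  have h4 := hx (star c) h3
  have h5 := congrArg star h4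
  rw [star_mul, star_mul, star_star] at h5
  exact h5.symm

theorem sub_pow_eq_zero {p : ℕ} (hp : p.Prime) (hp0 : (p : R) = 0) {y : R} (hy : y ^ p = 1) : (y - 1) ^ p = 0 := by
  rcases subsingleton_or_nontrivial R with h | h
  · exact Subsingleton.elim _ _
  · have hf : Fact p.Prime := ⟨hp⟩
    obtain ⟨q, hq⟩ := CharP.exists R
    have h1 : q ∣ p := (CharP.cast_eq_zero_iff R q p).1 hp0
    have h2 : q = p := by
      rcases (Nat.dvd_prime hp).1 h1 with h3 | h3
      · exact absurd h3 (CharP.char_ne_one R q)
      · exact h3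
    subst h2
    rw [sub_pow_char_of_commute _ (Commute.one_right y), hy, one_pow, sub_self]

/-- **the logarithm of a unitary element of order `p`**. -/
theorem exists_skew [StarRing R] [Finite R] {p : ℕ} (hp : p.Prime) (hp0 : (p : R) = 0) {y : R} (h1 : star y * y = 1)
    (h2 : y * star y = 1) (hy : y ^ p = 1) : ∃ n : R, ex p n = y ∧ star n = -n ∧ n ^ p = 0 := by
  let _ := dcRing y
  have hpA : (p : dc y) = 0 := Subtype.ext (by push_cast; exact hp0)
  let z : dc y := ⟨y, self_mem y⟩ - 1
  have hz : z ^ p = 0 := Subtype.ext (sub_pow_eq_zero hp hp0 hy)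
  obtain ⟨n, hn, hex⟩ := exists_log hp hpA hz
  have hmap : ∀ x : dc y, ((ex p x : dc y) : R) = ex p (x : R) := fun x => map_ex (dc y).subtype x
  have hexR : ex p (n : R) = y := by
    rw [← hmap, hex]
    show (1 : R) + (y - 1) = y
    abel
  have hnp : n ^ p = 0 := by
    have := prod_zero (p := p) hz hn hn (i := p) (j := 0) (by omega)
    rwa [pow_zero, mul_one] at this
  have hnpR : (n : R) ^ p = 0 := congrArg Subtype.val hnp
  -- the star of `n`
  let s : dc y := ⟨star (n : R), star_mem h1 h2 n.2⟩
  have hs : z ∣ s := by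
    obtain ⟨c, hc⟩ := hn
    have hcR : (n : R) = (y - 1) * (c : R) := congrArg Subtype.val hc
    refine ⟨⟨-star y, neg_mem (star_mem h1 h2 (self_mem y))⟩ * ⟨star (c : R), star_mem h1 h2 c.2⟩, Subtype.ext ?_⟩
    show star (n : R) = (y - 1) * (-star y * star (c : R))
    have h3 : star (n : R) = star ((c : R) * (y - 1)) := by
      rw [hcR, mem_dc.1 c.2 (y - 1) (by noncomm_ring)]
    rw [h3, star_mul, star_sub, star_one, ← mul_assoc]
    congr 1
    rw [sub_mul, one_mul, mul_neg, h2]
    abel
  have h3 : s = -n := by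
    refine ex_inj hp hpA hz hs ((dvd_neg).2 hn) ?_
    apply Subtype.ext
    rw [hmap, hmap]
    show ex p (star (n : R)) = ex p (-(n : R))
    rw [← star_ex, hexR]
    have h4 := ex_neg hp hp0 hnpR
    rw [hexR] at h4
    calc star y = star y * (y * ex p (-(n : R))) := by rw [h4, mul_one]
      _ = ex p (-(n : R)) := by rw [← mul_assoc, h1, one_mul]
  exact ⟨n, hexR, congrArg Subtype.val h3, hnpR⟩

end Cfsg.Agent.H901.CA
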