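import Cfsg.Agent.H901.CA.Fam
import Cfsg.Agent.H901.CA.Log

/-!
# Unipotent elements of order `p` in `SU` (helper901, for S3852, task CA8)
-/

set_option autoImplicit false
set_option linter.unusedSectionVars false

namespace Cfsg.Agent.H901.CA

open Finset Matrix Cfsg.Agent.H308.CA Module

variable {ι : Type} [Fintype ι] [DecidableEq ι] {E : Type} [CommRing E] [StarRing E]

namespace Fam

variable {n : Matrix ι ι E} {κ : Type} (D : Fam n κ) [Fintype κ]

section basis

variable (hn : star n = -n) (hD : ∀ x ∈ D.perp, x = 0)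

include hn hD

theorem span_top : ⊤ ≤ Submodule.span E (Set.range D.b) := by
  obtain ⟨w, hw⟩ := D.exists_w hn
  intro x _
  have h1 := hD _ (D.sub_proj_mem hn hw x)
  rw [sub_eq_zero] at h1
  rw [h1]
  exact Submodule.sum_mem _ fun t _ => Submodule.smul_mem _ _ (Submodule.subset_span ⟨t, rfl⟩)

/-- the basis -/
noncomputable def bas : Basis D.J E (ι → E) := Basis.mk (D.linInd hn) (D.span_top hn hD)

theorem bas_apply (t : D.J) : D.bas hn hD t = D.b t := Basis.mk_apply _ _ _

theorem ext_b {A B : Matrix ι ι E} (h : ∀ t, A *ᵥ D.b t = B *ᵥ D.b t) : A = B := by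
  apply Matrix.toLin'.injective
  refine (D.bas hn hD).ext fun t => ?_
  rw [bas_apply, Matrix.toLin'_apply, Matrix.toLin'_apply, h]

theorem card_eq [Nontrivial E] : Fintype.card D.J = Fintype.card ι := by
  rw [← Module.finrank_fintype_fun_eq_card (R := E) (η := ι), Module.finrank_eq_card_basis (D.bas hn hD)]

/-- the diagonal matrices -/
theorem exists_diag (θ : D.J → E) : ∃ g : Matrix ι ι E, (∀ t, g *ᵥ D.b t = θ t • D.b t) ∧ g.det = ∏ t, θ t := by
  classical
  let f : (ι → E) →ₗ[E] (ι → E) := (D.bas hn hD).constr E fun t => θ t • D.b t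
  have hf' : ∀ t, f (D.b t) = θ t • D.b t := by
    intro t
    rw [← D.bas_apply hn hD, Basis.constr_basis, D.bas_apply hn hD]
  refine ⟨LinearMap.toMatrix' f, fun t => ?_, ?_⟩
  · rw [LinearMap.toMatrix'_mulVec, hf']
  · rw [LinearMap.det_toMatrix', ← LinearMap.det_toMatrix (D.bas hn hD) f]
    have h1 : LinearMap.toMatrix (D.bas hn hD) (D.bas hn hD) f = diagonal θ := by
      ext i j
      rw [LinearMap.toMatrix_apply, D.bas_apply hn hD, hf', ← D.bas_apply hn hD, map_smul, Basis.repr_self,
        Finsupp.smul_apply, Finsupp.single_apply, diagonal_apply]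
      by_cases h : j = i
      · rw [if_pos h, if_pos h.symm, h, smul_eq_mul, mul_one]
      · rw [if_neg h, if_neg (Ne.symm h), smul_zero]
    rw [h1, det_diagonal]

/-- **the conjugating element** -/
theorem exists_conj {a : ℕ} {μ : κ → E} (h1 : ∀ i, star (μ i) * μ i * (a : E) ^ (D.s i) = 1)
    (h2 : ∏ i, ∏ j ∈ range (D.s i + 1), (μ i * (a : E) ^ j) = 1) :
    ∃ g : SU ι E, mt g * n = (a : Matrix ι ι E) * n * mt g := by
  obtain ⟨g, hg, hdet⟩ := D.exists_diag hn hD fun t => μ t.1 * (a : E) ^ (t.2 : ℕ)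
  have hdet1 : g.det = 1 := by
    rw [hdet, Fintype.prod_sigma, ← h2]
    refine prod_congr rfl fun i _ => ?_
    exact (Fin.prod_univ_eq_prod_range (fun j => μ i * (a : E) ^ j) (D.s i + 1))
  have hu : star g * g = 1 := by
    refine D.ext_b hn hD fun t => ?_
    rw [← mulVec_mulVec, one_mulVec, hg, mulVec_smul]
    rw [← sub_eq_zero]
    refine hD _ (D.mem_perp_of hn fun t' => ?_)
    rw [hf_sub_right, hf_smul_right]
    have h3 : hf (D.b t') (star g *ᵥ D.b t) = star (μ t'.1 * (a : E) ^ (t'.2 : ℕ)) * hf (D.b t') (D.b t) := by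
      rw [← hf_mulVec_left, hg, hf_smul_left]
    rw [h3]
    obtain ⟨t'', rfl⟩ : ∃ t'', t' = D.σ t'' := ⟨D.σ t', (D.σ_σ t').symm⟩
    by_cases h4 : t = t''
    · subst h4
      have h5 : (t.2 : ℕ) < D.s t.1 + 1 := t.2.2
      have h6 : (μ t.1 * (a : E) ^ (t.2 : ℕ)) * star (μ (D.σ t).1 * (a : E) ^ ((D.σ t).2 : ℕ)) = 1 := by
        rw [star_mul', star_pow, star_natCast, D.σ_val]
        show (μ t.1 * (a : E) ^ (t.2 : ℕ)) * (star (μ t.1) * (a : E) ^ (D.s t.1 - t.2)) = 1
        rw [← h1 t.1]
        have h7 : (a : E) ^ (D.s t.1) = (a : E) ^ (t.2 : ℕ) * (a : E) ^ (D.s t.1 - t.2) := by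
          rw [← pow_add]
          congr 1
          omega
        rw [h7]
        ring
      rw [← mul_assoc, h6, one_mul, sub_self]
    · rw [D.gram hn t'' t h4, mul_zero, mul_zero, sub_zero]
  refine ⟨mkSU g hu hdet1, ?_⟩
  rw [mt_mkSU]
  refine D.ext_b hn hD fun t => ?_
  have h3 : ((a : Matrix ι ι E)) * n = (a : E) • n := by
    rw [← nsmul_eq_mul, ← Nat.cast_smul_eq_nsmul E]
  rw [h3, ← mulVec_mulVec, ← mulVec_mulVec, hg, mulVec_smul]
  rcases t with ⟨i, j⟩
  have h4 : n *ᵥ D.b ⟨i, j⟩ = (n ^ ((j : ℕ) + 1)) *ᵥ D.v i := by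
    rw [b, mulVec_mulVec, ← pow_succ']
  rw [smul_mulVec, h4]
  rcases Nat.lt_or_ge ((j : ℕ) + 1) (D.s i + 1) with h5 | h5
  · have h6 := hg ⟨i, ⟨(j : ℕ) + 1, h5⟩⟩
    have h7 : D.b ⟨i, ⟨(j : ℕ) + 1, h5⟩⟩ = (n ^ ((j : ℕ) + 1)) *ᵥ D.v i := rfl
    rw [h7] at h6
    rw [h6, smul_smul]
    congr 1
    show μ i * (a : E) ^ ((j : ℕ) + 1) = μ i * (a : E) ^ (j : ℕ) * a
    ring
  · rw [pow_mulVec_zero h5 (D.kill i), mulVec_zero, smul_zero, smul_zero]

end basis

end Fam

theorem conj_of {p : ℕ} (hp : p.Prime) (hp0 : (p : Matrix ι ι E) = 0) {n : Matrix ι ι E} {y g : SU ι E} {a : ℕ}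
    (hy : ex p n = mt y) (hn : n ^ p = 0) (h : mt g * n = (a : Matrix ι ι E) * n * mt g) : g * y * g⁻¹ = y ^ a := by
  rw [mul_inv_eq_iff_eq_mul]
  apply mt_injective
  rw [map_mul, map_mul, map_pow, ← hy, ex_conj h, ex_nat hp hp0 hn]

theorem sum_two (s : ℕ) : 2 * ∑ j ∈ range (s + 1), j = s * (s + 1) := by
  have := Finset.sum_range_id_mul_two (s + 1)
  rw [mul_comm, this, Nat.add_sub_cancel, mul_comm]

theorem prod_piece (m a : E) (s : ℕ) : ∏ j ∈ range (s + 1), (m * a ^ j) = m ^ (s + 1) * a ^ (∑ j ∈ range (s + 1), j) := by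
  rw [prod_mul_distrib, prod_const, card_range, prod_pow_eq_pow_sum]

/-- the determinant of a piece has norm one -/
theorem star_piece {m : E} {a s : ℕ} (h : star m * m * (a : E) ^ s = 1) :
    star (∏ j ∈ range (s + 1), (m * (a : E) ^ j)) * ∏ j ∈ range (s + 1), (m * (a : E) ^ j) = 1 := by
  rw [prod_piece, star_mul', star_pow, star_pow, star_natCast]
  calc star m ^ (s + 1) * (a : E) ^ (∑ j ∈ range (s + 1), j) * (m ^ (s + 1) * (a : E) ^ (∑ j ∈ range (s + 1), j))
      = (star m * m) ^ (s + 1) * (a : E) ^ (2 * ∑ j ∈ range (s + 1), j) := by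
        rw [mul_pow, two_mul, pow_add]; ring
    _ = (star m * m * (a : E) ^ s) ^ (s + 1) := by rw [sum_two, mul_pow (star m * m), pow_mul]
    _ = 1 := by rw [h, one_pow]

theorem Gd.cube_zero {E : Type} [CommRing E] [StarRing E] (h : Gd E) {a : E} (ha : a ^ 3 = 0) : a = 0 := by
  cases h with
  | lin F i _ =>
    obtain ⟨x, y⟩ := a
    have h1 : x ^ 3 = 0 := congrArg Prod.fst ha
    have h2 : y ^ 3 = 0 := congrArg Prod.snd ha
    have hx : x = 0 := by simpa using h1
    have hy : y = 0 := by simpa using h2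
    rw [hx, hy]; rfl
  | uni F i s _ hs => simpa using ha

theorem cube_inj (hG : Gd E) (h3 : (3 : E) = 0) {x y : E} (h : x ^ 3 = y ^ 3) : x = y := by
  have h1 : (x - y) ^ 3 = 0 := by
    calc (x - y) ^ 3 = (x ^ 3 - y ^ 3) + 3 * (x * y * (y - x)) := by ring
      _ = 0 := by rw [h, h3]; ring
  exact sub_eq_zero.1 (Gd.cube_zero hG h1)

/-- norm one elements are cubes of norm one elements in characteristic three -/
theorem exists_cube (hG : Gd E) (h3 : (3 : E) = 0) {z : E} (hz : star z * z = 1) : ∃ x : E, star x * x = 1 ∧ x ^ 3 = z := by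
  have hfin : Finite E := hG.finite
  have hinj : Function.Injective (fun x : E => x ^ 3) := fun x y h => cube_inj hG h3 h
  obtain ⟨x, hx⟩ := (Finite.injective_iff_surjective.1 hinj) z
  have hx' : x ^ 3 = z := hx
  refine ⟨x, ?_, hx'⟩
  apply cube_inj hG h3
  rw [mul_pow, ← star_pow, hx', hz, one_pow]

theorem big (hG : Gd E) {p : ℕ} (hp : p.Prime) (hp3 : p ≠ 3) (h2 : IsUnit (2 : E)) {n : Matrix ι ι E}
    {y : SU ι E} (hp0 : (p : Matrix ι ι E) = 0) (hy : ex p n = mt y) (hn : star n = -n) (hnp : n ^ p = 0) :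
    ∃ (g : SU ι E) (a : ℕ), ¬ a ≡ 1 [MOD p] ∧ g * y * g⁻¹ = y ^ a := by
  obtain ⟨κ, _, _, D, hD⟩ := Fam.exists_full hG hn h2 hnp
  obtain ⟨t, ht⟩ := h2.exists_right_inv
  have hstt : star t = t := by
    have h3 : (2 : E) * star t = 1 := by
      have h4 := congrArg star ht
      rwa [star_mul', star_one, star_ofNat] at h4
    calc star t = (2 * t) * star t := by rw [ht, one_mul]
      _ = (2 * star t) * t := by ring
      _ = t := by rw [h3, one_mul]
  have h4 : ((4 : ℕ) : E) = 2 ^ 2 := by norm_num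
  obtain ⟨g, hg⟩ := D.exists_conj hn hD (a := 4) (μ := fun i => t ^ (D.s i))
    (by
      intro i
      rw [star_pow, hstt, h4, ← mul_pow, ← mul_pow, show t * t * 2 ^ 2 = (2 * t) * (2 * t) by ring, ht, one_mul, one_pow])
    (by
      refine prod_eq_one fun i _ => ?_
      rw [prod_piece, h4, ← pow_mul 2, sum_two, ← pow_mul, ← mul_pow, mul_comm t, ht, one_pow])
  refine ⟨g, 4, ?_, conj_of hp hp0 hy hnp hg⟩
  intro h
  have h5 := (Nat.modEq_iff_dvd' (by norm_num : 1 ≤ 4)).1 h.symm
  have h6 : p ∣ 3 := h5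
  exact hp3 ((Nat.prime_dvd_prime_iff_eq hp Nat.prime_three).1 h6)

/-- characteristic three -/
theorem three (hG : Gd E) (h3 : (3 : E) = 0) {n : Matrix ι ι E}
    {y : SU ι E} (hp0 : ((3 : ℕ) : Matrix ι ι E) = 0) (hy : ex 3 n = mt y) (hn : star n = -n) (hnp : n ^ 3 = 0) :
    (∃ (g : SU ι E) (a : ℕ), ¬ a ≡ 1 [MOD 3] ∧ g * y * g⁻¹ = y ^ a) ∨ BadU E 3 y := by
  classical
  have hE := hG.nontrivial
  have hfin := hG.finite
  have h22 : (2 : E) * 2 = 1 := by
    calc (2 : E) * 2 = 3 + 1 := by norm_num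
      _ = 1 := by rw [h3, zero_add]
  have h2 : IsUnit (2 : E) := IsUnit.of_mul_eq_one 2 h22
  have h20 : (2 : E) ≠ 0 := h2.ne_zero
  obtain ⟨κ, _, _, D, hD⟩ := Fam.exists_full hG hn h2 hnp
  -- the sizes are at most three
  have hs : ∀ i, D.s i ≤ 2 := by
    intro i
    by_contra h
    have h4 : (n ^ (D.s i)) *ᵥ D.v i = 0 := by
      rw [pow_eq_zero_of_le (by omega : 3 ≤ D.s i) hnp, zero_mulVec]
    have h5 := D.unit i
    rw [h4, hf_zero_right] at h5
    exact not_isUnit_zero h5
  obtain ⟨c, hc⟩ : ∃ c : E, star c * c = 2 := hG.norm (by rw [star_ofNat]) h20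
  have h2n : ((2 : ℕ) : E) = 2 := Nat.cast_ofNat
  have hval : ∀ i, ∀ m : E, (D.s i = 1 → star m * m = 2) → (D.s i ≠ 1 → star m * m = 1) →
      star m * m * ((2 : ℕ) : E) ^ (D.s i) = 1 := by
    intro i m hm1 hm2
    rw [h2n]
    by_cases h : D.s i = 1
    · rw [hm1 h, h, pow_one, h22]
    · rw [hm2 h, one_mul]
      have := hs i
      have h4 : D.s i = 0 ∨ D.s i = 2 := by omega
      rcases h4 with h4 | h4
      · rw [h4, pow_zero]
      · rw [h4, sq, h22]
  have h21 : ¬ 2 ≡ 1 [MOD 3] := by decide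
  by_cases hex : ∃ i0, D.s i0 ≠ 1
  · left
    obtain ⟨i0, hi0⟩ := hex
    -- the product of the other determinants
    obtain ⟨μ, hμ⟩ : ∃ μ : κ → E, μ = fun i => if D.s i = 1 then c else 1 := ⟨_, rfl⟩
    have hμv : ∀ i, star (μ i) * μ i * ((2 : ℕ) : E) ^ (D.s i) = 1 := by
      intro i
      refine hval i _ (fun h => ?_) (fun h => ?_)
      · rw [hμ]; simp only; rw [if_pos h, hc]
      · rw [hμ]; simp only; rw [if_neg h, star_one, one_mul]
    obtain ⟨P, hP⟩ : ∃ P : κ → E → E, P = fun i m => ∏ j ∈ range (D.s i + 1), (m * ((2 : ℕ) : E) ^ j) := ⟨_, rfl⟩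
    obtain ⟨d, hd⟩ : ∃ d : E, d = ∏ i ∈ univ.erase i0, P i (μ i) := ⟨_, rfl⟩
    have hd1 : star d * d = 1 := by
      rw [hd, star_prod, ← prod_mul_distrib]
      refine prod_eq_one fun i _ => ?_
      rw [hP]
      exact star_piece (hμv i)
    have hdd : star (star d) * star d = 1 := by rw [star_star, mul_comm, hd1]
    -- the last piece
    obtain ⟨m0, hm0, hPm0⟩ : ∃ m0 : E, star m0 * m0 = 1 ∧ P i0 m0 = star d := by
      have := hs i0
      have h4 : D.s i0 = 0 ∨ D.s i0 = 2 := by omega
      rcases h4 with h4 | h4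
      · refine ⟨star d, hdd, ?_⟩
        rw [hP]
        simp only
        rw [h4]
        simp
      · obtain ⟨x, hx, hx3⟩ := exists_cube hG h3 (z := -star d) (by rw [star_neg, neg_mul_neg, hdd])
        refine ⟨x, hx, ?_⟩
        rw [hP]
        simp only
        rw [h4, prod_piece, hx3, h2n]
        have h5 : ∑ j ∈ range (2 + 1), j = 3 := by decide
        rw [h5]
        calc -star d * 2 ^ 3 = star d - 3 * (3 * star d) := by ring
          _ = star d := by rw [h3]; ring
    obtain ⟨g, hg⟩ := D.exists_conj hn hD (a := 2) (μ := Function.update μ i0 m0)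
      (by
        intro i
        by_cases h : i = i0
        · subst h
          rw [Function.update_self]
          exact hval i m0 (fun h => absurd h hi0) (fun _ => hm0)
        · rw [Function.update_of_ne h]
          exact hμv i)
      (by
        rw [← mul_prod_erase univ _ (mem_univ i0), Function.update_self]
        have h5 : ∏ j ∈ range (D.s i0 + 1), (m0 * ((2 : ℕ) : E) ^ j) = star d := by
          rw [← hPm0, hP]
        have h6 : ∏ i ∈ univ.erase i0, ∏ j ∈ range (D.s i + 1), (Function.update μ i0 m0 i * ((2 : ℕ) : E) ^ j) = d := by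
          rw [hd]
          refine prod_congr rfl fun i hi => ?_
          rw [Function.update_of_ne (ne_of_mem_erase hi), hP]
        rw [h5, h6, hd1])
    exact ⟨g, 2, h21, conj_of Nat.prime_three hp0 hy hnp hg⟩
  · push Not at hex
    rcases Nat.even_or_odd (Fintype.card κ) with hk | hk
    · left
      obtain ⟨m, hm⟩ := hk
      obtain ⟨S, hS1, hS2⟩ := Finset.exists_subset_card_eq (s := (univ : Finset κ)) (n := m) (by rw [card_univ]; omega)
      -- the two choices
      obtain ⟨c', hc'⟩ : ∃ c' : E, c' = 2 * star c := ⟨_, rfl⟩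
      have hcc : c * c' = 1 := by
        rw [hc']
        calc c * (2 * star c) = 2 * (star c * c) := by ring
          _ = 1 := by rw [hc, h22]
      have hc's : star c' * c' = 2 := by
        rw [hc', star_mul', star_star, star_ofNat]
        calc (2 : E) * c * (2 * star c) = (2 * 2) * (star c * c) := by ring
          _ = 2 := by rw [hc, h22, one_mul]
      obtain ⟨g, hg⟩ := D.exists_conj hn hD (a := 2) (μ := fun i => if i ∈ S then c else c')
        (by
          intro i
          refine hval i _ (fun _ => ?_) (fun h => absurd (hex i) h)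
          by_cases h : i ∈ S
          · rw [if_pos h, hc]
          · rw [if_neg h, hc's])
        (by
          have h5 : ∀ i, ∏ j ∈ range (D.s i + 1), ((if i ∈ S then c else c') * ((2 : ℕ) : E) ^ j) =
              if i ∈ S then c ^ 2 * 2 else c' ^ 2 * 2 := by
            intro i
            rw [hex i, prod_piece, h2n]
            have h6 : ∑ j ∈ range (1 + 1), j = 1 := by decide
            rw [h6, pow_one]
            split_ifs <;> rfl
          simp only [h5]
          rw [prod_ite, prod_const, prod_const]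
          have h7 : (univ.filter fun i => i ∈ S).card = m := by
            rw [filter_mem_eq_inter, univ_inter, hS2]
          have h8 : (univ.filter fun i => i ∉ S).card = m := by
            have := Finset.card_filter_add_card_filter_not (s := (univ : Finset κ)) (fun i => i ∈ S)
            rw [h7, card_univ] at this
            omega
          rw [h7, h8, ← mul_pow]
          rw [show c ^ 2 * 2 * (c' ^ 2 * 2) = (c * c') ^ 2 * (2 * 2) by ring, hcc, h22, one_pow, one_mul, one_pow])
      exact ⟨g, 2, h21, conj_of Nat.prime_three hp0 hy hnp hg⟩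
    · right
      have hn2 : n ^ 2 = 0 := by
        refine D.ext_b hn hD fun t => ?_
        rw [Fam.b, zero_mulVec, mulVec_mulVec, ← pow_add]
        refine pow_mulVec_zero ?_ (D.kill t.1)
        have := hex t.1
        omega
      have hyn : mt y - 1 = n := by
        rw [← hy, ex, sum_range_succ, sum_range_succ, sum_range_one, hn2, mul_zero, add_zero, pow_zero, mul_one, pow_one,
          cast_congr hp0 (ef_zero Nat.prime_three), cast_congr hp0 (ef_one Nat.prime_three), Nat.cast_one, one_mul,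
          add_sub_cancel_left]
      refine ⟨rfl, by rw [hyn, hn2], Fintype.card κ, hk, ?_, ?_⟩
      · rw [← D.card_eq hn hD, Fam.card_J]
        simp only [hex]
        rw [sum_const, card_univ, smul_eq_mul, mul_comm]
      · rw [hyn]
        -- the kernel
        have hun : ∀ i, IsUnit (hf (D.v i) (n *ᵥ D.v i)) := by
          intro i
          have := D.unit i
          rwa [hex i, pow_one] at this
        have hor : ∀ i i', i ≠ i' → hf (D.v i) (n *ᵥ D.v i') = 0 := by
          intro i i' h
          have := D.orth i i' 1 h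
          rwa [pow_one] at this
        choose u hu using fun i => (hun i).exists_right_inv
        have hnn : ∀ x : ι → E, n *ᵥ (n *ᵥ x) = 0 := by
          intro x
          rw [mulVec_mulVec, ← sq, hn2, zero_mulVec]
        have hsum : ∀ (a : κ → E) (i : κ), hf (D.v i) (∑ i', a i' • (n *ᵥ D.v i')) = a i * hf (D.v i) (n *ᵥ D.v i) := by
          intro a i
          rw [hf_sum_right, Finset.sum_eq_single i]
          · rw [hf_smul_right]
          · intro i' _ hi'
            rw [hf_smul_right, hor i i' (Ne.symm hi'), mul_zero]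
          · intro h
            exact absurd (mem_univ i) h
        have hker : ∀ a : κ → E, n *ᵥ (∑ i', a i' • (n *ᵥ D.v i')) = 0 := by
          intro a
          rw [mulVec_sum]
          refine sum_eq_zero fun i _ => ?_
          rw [mulVec_smul, hnn, smul_zero]
        let f : (κ → E) → {v : ι → E // n *ᵥ v = 0} := fun a => ⟨∑ i', a i' • (n *ᵥ D.v i'), hker a⟩
        have hinj : Function.Injective f := by
          intro a a' haa
          have h5 : ∑ i', a i' • (n *ᵥ D.v i') = ∑ i', a' i' • (n *ᵥ D.v i') := congrArg Subtype.val haa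
          funext i
          have h6 := hsum a i
          rw [h5, hsum a' i] at h6
          exact ((hun i).mul_left_injective h6).symm
        have hsurj : Function.Surjective f := by
          rintro ⟨x, hx⟩
          refine ⟨fun i => hf (D.v i) x * u i, Subtype.ext ?_⟩
          show ∑ i', (hf (D.v i') x * u i') • (n *ᵥ D.v i') = x
          rw [← sub_eq_zero]
          refine hD _ fun i j => ?_
          rcases Nat.eq_zero_or_pos j with h | h
          · subst h
            rw [pow_zero, one_mulVec, hf_sub_right, hsum (fun i => hf (D.v i) x * u i) i, mul_assoc, mul_comm (u i), hu,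
              mul_one, sub_self]
          · obtain ⟨j', rfl⟩ := Nat.exists_eq_succ_of_ne_zero h.ne'
            rw [pow_succ, ← mulVec_mulVec, mulVec_sub, hker, hx, sub_zero, mulVec_zero, hf_zero_right]
        rw [← Nat.card_congr (Equiv.ofBijective f ⟨hinj, hsurj⟩), Nat.card_fun, Nat.card_eq_fintype_card (α := κ)]

/-- **(UNI)** unipotent elements of order `p` are conjugate to proper powers, except the bad ones. -/
theorem uni_st {E : Type} [CommRing E] [StarRing E] (h : Gd E) : UniSt E := by
  intro p hp hp2 hch ι _ _ y hy hy1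
  have hfin := h.finite
  have hnt := h.nontrivial
  have hpE : (p : E) = 0 := CharP.cast_eq_zero E p
  have hp0 : (p : Matrix ι ι E) = 0 := by
    rw [← nsmul_one, ← Nat.cast_smul_eq_nsmul E, hpE, zero_smul]
  have h2 : IsUnit (2 : E) := by
    have h3 : Nat.Coprime 2 p := (Nat.coprime_primes Nat.prime_two hp).2 (Ne.symm hp2)
    have h4 : IsUnit ((2 : ℕ) : E) := (CharP.isUnit_natCast_iff hp).2 (fun h5 => hp2 (by
      rw [← (Nat.prime_dvd_prime_iff_eq hp Nat.prime_two).1 h5]))
    simpa using h4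
  obtain ⟨n, hn1, hn2, hn3⟩ := exists_skew hp hp0 (star_mt_mul y) (mt_mul_star y) (by rw [← map_pow, hy, map_one])
  by_cases hp3 : p = 3
  · subst hp3
    have h3 : (3 : E) = 0 := by simpa using hpE
    exact three h h3 hp0 hn1 hn2 hn3
  · exact Or.inl (big h hp hp3 h2 hp0 hn1 hn2 hn3)

end Cfsg.Agent.H901.CA
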