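import Mathlib

/-!
# Truncated exponentials in characteristic `p` (helper901, for S3852)
-/

set_option autoImplicit false

namespace Cfsg.Agent.H901.CA

open Finset

/-- a natural number inverse to `i!` modulo `p` -/
noncomputable def ef (p i : ℕ) : ℕ := ((i.factorial : ZMod p)⁻¹).val

theorem ef_cast {p : ℕ} (hp : p.Prime) (i : ℕ) : (ef p i : ZMod p) = (i.factorial : ZMod p)⁻¹ := by
  have : NeZero p := ⟨hp.ne_zero⟩
  rw [ef, ZMod.natCast_val, ZMod.cast_id', id]

theorem fact_ne {p : ℕ} (hp : p.Prime) {i : ℕ} (hi : i < p) : (i.factorial : ZMod p) ≠ 0 := by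
  intro h
  rw [ZMod.natCast_eq_zero_iff] at h
  exact absurd ((hp.dvd_factorial).1 h) (by omega)

theorem ef_mul_ef {p : ℕ} (hp : p.Prime) {i j : ℕ} (h : i + j < p) :
    ef p i * ef p j ≡ ef p (i + j) * (i + j).choose i [MOD p] := by
  have hf : Fact p.Prime := ⟨hp⟩
  rw [← ZMod.natCast_eq_natCast_iff]
  push_cast
  rw [ef_cast hp, ef_cast hp, ef_cast hp]
  have h1 := fact_ne hp (i := i) (by omega)
  have h2 := fact_ne hp (i := j) (by omega)
  have h3 := fact_ne hp h
  have h4 : ((i + j).choose i : ZMod p) * (i.factorial : ZMod p) * (j.factorial : ZMod p) = ((i + j).factorial : ZMod p) := by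
    have := Nat.choose_mul_factorial_mul_factorial (Nat.le_add_right i j)
    rw [Nat.add_sub_cancel_left] at this
    exact_mod_cast congrArg (Nat.cast (R := ZMod p)) this
  rw [← h4]
  rw [← h4] at h3
  have h5 : ((i + j).choose i : ZMod p) ≠ 0 := by
    intro h6
    rw [h6, zero_mul, zero_mul] at h3
    exact h3 rfl
  field_simp

theorem ef_zero {p : ℕ} (hp : p.Prime) : ef p 0 ≡ 1 [MOD p] := by
  have hf : Fact p.Prime := ⟨hp⟩
  rw [← ZMod.natCast_eq_natCast_iff, ef_cast hp]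
  simp

theorem ef_one {p : ℕ} (hp : p.Prime) : ef p 1 ≡ 1 [MOD p] := by
  have hf : Fact p.Prime := ⟨hp⟩
  rw [← ZMod.natCast_eq_natCast_iff, ef_cast hp]
  simp

section ring

variable {R : Type*} [Ring R] {p : ℕ}

theorem cast_congr (hp0 : (p : R) = 0) {a b : ℕ} (h : a ≡ b [MOD p]) : (a : R) = b := by
  have h1 : ∀ c : ℕ, (c : R) = ((c % p : ℕ) : R) := by
    intro c
    conv_lhs => rw [← Nat.mod_add_div c p]
    rw [Nat.cast_add, Nat.cast_mul, hp0, zero_mul, add_zero]
  rw [h1 a, h1 b, h]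

/-- the truncated exponential -/
noncomputable def ex (p : ℕ) (x : R) : R := ∑ i ∈ range p, (ef p i : R) * x ^ i

theorem ex_add (hp : p.Prime) (hp0 : (p : R) = 0) {x y : R} (hc : Commute x y)
    (h : ∀ i j, p ≤ i + j → x ^ i * y ^ j = 0) : ex p (x + y) = ex p x * ex p y := by
  have h1 : ex p x * ex p y = ∑ m ∈ range p, ∑ k ∈ range (p - m), ((ef p m : R) * x ^ m) * ((ef p k : R) * y ^ k) := by
    rw [ex, ex, sum_mul_sum]
    refine sum_congr rfl fun m _ => ?_
    symm
    refine sum_subset (fun k hk => by rw [mem_range] at hk ⊢; omega) fun k hk hk' => ?_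
    rw [mem_range] at hk hk'
    rw [mul_assoc, ← mul_assoc (x ^ m), (Nat.cast_commute (ef p k) (x ^ m)).eq.symm, mul_assoc, h m k (by omega)]
    simp
  rw [h1, ← sum_range_diag_flip, ex]
  refine sum_congr rfl fun k hk => ?_
  rw [hc.add_pow, mul_sum]
  refine sum_congr rfl fun i hi => ?_
  rw [mem_range] at hk hi
  have h2 : ((ef p i : ℕ) : R) * (ef p (k - i) : ℕ) = (ef p k : ℕ) * (k.choose i : ℕ) := by
    rw [← Nat.cast_mul, ← Nat.cast_mul]
    refine cast_congr hp0 ?_
    have := ef_mul_ef hp (i := i) (j := k - i) (by omega)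
    rwa [Nat.add_sub_cancel' (by omega : i ≤ k)] at this
  calc ((ef p k : ℕ) : R) * (x ^ i * y ^ (k - i) * (k.choose i : ℕ)) =
        ((ef p k : ℕ) : R) * (k.choose i : ℕ) * (x ^ i * y ^ (k - i)) := by
        rw [← (Nat.cast_commute (k.choose i) (x ^ i * y ^ (k - i))).eq, ← mul_assoc]
    _ = ((ef p i : ℕ) : R) * (ef p (k - i) : ℕ) * (x ^ i * y ^ (k - i)) := by rw [h2]
    _ = _ := by
        rw [mul_assoc, mul_assoc, ← mul_assoc ((ef p (k - i) : ℕ) : R) (x ^ i), (Nat.cast_commute (ef p (k - i)) (x ^ i)).eq,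
          mul_assoc (x ^ i)]

theorem ex_zero (hp : p.Prime) (hp0 : (p : R) = 0) : ex p (0 : R) = 1 := by
  rw [ex, sum_eq_single 0]
  · rw [pow_zero, mul_one, cast_congr hp0 (ef_zero hp), Nat.cast_one]
  · intro i _ hi
    rw [zero_pow hi, mul_zero]
  · intro h
    exact absurd (mem_range.2 hp.pos) h

theorem ex_nat (hp : p.Prime) (hp0 : (p : R) = 0) {x : R} (hx : x ^ p = 0) (a : ℕ) :
    ex p ((a : R) * x) = ex p x ^ a := by
  induction a with
  | zero => rw [Nat.cast_zero, zero_mul, ex_zero hp hp0, pow_zero]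
  | succ a ih =>
    rw [Nat.cast_succ, add_mul, one_mul, ex_add hp hp0 ((Nat.cast_commute a x).mul_left (Commute.refl x)), ih, pow_succ]
    intro i j hij
    rw [(Nat.cast_commute a x).mul_pow, mul_assoc, ← pow_add, pow_eq_zero_of_le hij hx, mul_zero]

theorem ex_neg (hp : p.Prime) (hp0 : (p : R) = 0) {x : R} (hx : x ^ p = 0) : ex p x * ex p (-x) = 1 := by
  rw [← ex_add hp hp0 ((Commute.refl x).neg_right), add_neg_cancel, ex_zero hp hp0]
  intro i j hij
  rw [neg_pow, ← mul_assoc, ← ((Commute.neg_one_left (x ^ i)).pow_left j).eq, mul_assoc, ← pow_add,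
    pow_eq_zero_of_le hij hx, mul_zero]

/-- conjugation -/
theorem ex_conj {x g : R} {a : ℕ} (h : g * x = (a : R) * x * g) : g * ex p x = ex p ((a : R) * x) * g := by
  have h1 : ∀ i, g * x ^ i = ((a : R) * x) ^ i * g := by
    intro i
    induction i with
    | zero => simp
    | succ i ih => rw [pow_succ, ← mul_assoc, ih, mul_assoc, h, ← mul_assoc, ← pow_succ]
  rw [ex, ex, mul_sum, sum_mul]
  refine sum_congr rfl fun i _ => ?_
  rw [← mul_assoc, (Nat.cast_commute (ef p i) g).eq.symm, mul_assoc, h1, ← mul_assoc]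

theorem map_ex {S : Type*} [Ring S] (f : R →+* S) (x : R) : f (ex p x) = ex p (f x) := by
  rw [ex, ex, map_sum]
  refine sum_congr rfl fun i _ => ?_
  rw [map_mul, map_natCast, map_pow]

theorem star_ex [StarRing R] (x : R) : star (ex p x) = ex p (star x) := by
  rw [ex, ex, star_sum]
  refine sum_congr rfl fun i _ => ?_
  rw [star_mul, star_natCast, star_pow, (Nat.cast_commute (ef p i) _).eq]

end ring

section comm

variable {A : Type*} [CommRing A] {p : ℕ}

theorem prod_zero {z x y : A} (hz : z ^ p = 0) (hx : z ∣ x) (hy : z ∣ y) {i j : ℕ} (h : p ≤ i + j) :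
    x ^ i * y ^ j = 0 := by
  obtain ⟨c, rfl⟩ := hx
  obtain ⟨d, rfl⟩ := hy
  rw [mul_pow, mul_pow, mul_mul_mul_comm, ← pow_add, pow_eq_zero_of_le h hz, zero_mul]

/-- `exp` is injective on the multiples of a nilpotent element -/
theorem ex_inj (hp : p.Prime) (hp0 : (p : A) = 0) {z x y : A} (hz : z ^ p = 0) (hx : z ∣ x) (hy : z ∣ y)
    (h : ex p x = ex p y) : x = y := by
  have hny : z ∣ -y := (dvd_neg).2 hy
  have hyp : y ^ p = 0 := by
    have := prod_zero (p := p) hz hy hy (i := p) (j := 0) (by omega)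
    rwa [pow_zero, mul_one] at this
  obtain ⟨d, hd⟩ : ∃ d, d = x - y := ⟨_, rfl⟩
  have hdz : z ∣ d := hd ▸ dvd_sub hx hy
  have hdp : d ^ p = 0 := by
    have := prod_zero (p := p) hz hdz hdz (i := p) (j := 0) (by omega)
    rwa [pow_zero, mul_one] at this
  have h1 : ex p d = 1 := by
    rw [hd, sub_eq_add_neg, ex_add hp hp0 (Commute.all _ _) (fun i j hij => prod_zero hz hx hny hij), h,
      ex_neg hp hp0 hyp]
  -- `ex d = 1 + d (1 + d q)`
  have h2 : ex p d = 1 + d * (1 + d * ∑ i ∈ range (p - 2), (ef p (i + 2) : A) * d ^ i) := by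
    have hp2 := hp.two_le
    obtain ⟨k, hk⟩ : ∃ k, p = k + 2 := ⟨p - 2, by omega⟩
    have e0 := cast_congr hp0 (ef_zero hp)
    have e1 := cast_congr hp0 (ef_one hp)
    rw [Nat.cast_one] at e0 e1
    have e2 : ex p d = (∑ i ∈ range k, (ef p (i + 2) : A) * d ^ (i + 2)) + (ef p 1 : A) * d ^ 1 + (ef p 0 : A) * d ^ 0 := by
      have e3 : ex p d = ∑ i ∈ range (k + 2), (ef p i : A) * d ^ i := by
        rw [ex, ← hk]
      rw [e3, sum_range_succ', sum_range_succ']
    rw [e2, e0, e1, show p - 2 = k by omega, mul_add d, mul_sum, mul_sum]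
    have e4 : ∀ i, (ef p (i + 2) : A) * d ^ (i + 2) = d * (d * ((ef p (i + 2) : A) * d ^ i)) := fun i => by ring
    simp only [e4]
    ring
  rw [h1] at h2
  have h3 : d * (1 + d * ∑ i ∈ range (p - 2), (ef p (i + 2) : A) * d ^ i) = 0 := by
    have := add_left_cancel (a := (1 : A)) (b := 0) (c := d * (1 + d * ∑ i ∈ range (p - 2), (ef p (i + 2) : A) * d ^ i))
      (by rw [add_zero]; exact h2)
    exact this.symm
  have h4 : IsUnit (1 + d * ∑ i ∈ range (p - 2), (ef p (i + 2) : A) * d ^ i) := by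
    refine IsNilpotent.isUnit_one_add ⟨p, ?_⟩
    rw [mul_pow, hdp, zero_mul]
  have h5 : d = 0 := by
    rwa [IsUnit.mul_left_eq_zero h4] at h3
  exact sub_eq_zero.1 (hd ▸ h5)

/-- logarithms exist -/
theorem exists_log [Finite A] (hp : p.Prime) (hp0 : (p : A) = 0) {z : A} (hz : z ^ p = 0) :
    ∃ x : A, z ∣ x ∧ ex p x = 1 + z := by
  have hm : ∀ x : {x : A // z ∣ x}, z ∣ ex p x.1 - 1 := by
    rintro ⟨x, hx⟩
    have hp1 := hp.pos
    obtain ⟨k, hk⟩ : ∃ k, p = k + 1 := ⟨p - 1, by omega⟩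
    have e0 := cast_congr hp0 (ef_zero hp)
    rw [Nat.cast_one] at e0
    have e3 : ex p x = ∑ i ∈ range (k + 1), (ef p i : A) * x ^ i := by
      rw [ex, ← hk]
    rw [e3, sum_range_succ', e0, pow_zero, mul_one, add_sub_cancel_right]
    refine dvd_sum fun i _ => ?_
    exact (hx.trans (dvd_pow_self x (Nat.succ_ne_zero i))).mul_left _
  let f : {x : A // z ∣ x} → {x : A // z ∣ x} := fun x => ⟨ex p x.1 - 1, hm x⟩
  have hf : Function.Injective f := by
    intro x y hxy
    have h1 : ex p x.1 - 1 = ex p y.1 - 1 := congrArg Subtype.val hxy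
    exact Subtype.ext (ex_inj hp hp0 hz x.2 y.2 (sub_left_injective h1))
  obtain ⟨x, hx⟩ := (Finite.injective_iff_surjective.1 hf) ⟨z, dvd_rfl⟩
  have h1 : ex p x.1 - 1 = z := congrArg Subtype.val hx
  exact ⟨x.1, x.2, (eq_add_of_sub_eq h1).trans (add_comm _ _)⟩

end comm

end Cfsg.Agent.H901.CA
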