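import Cfsg.Agent.H901.CA.Form

/-!
# Orthogonal families of cyclic generators (helper901, for S3852)
-/

set_option autoImplicit false
set_option linter.unusedSectionVars false

namespace Cfsg.Agent.H901.CA

open Finset Matrix Cfsg.Agent.H308.CA

variable {ι : Type} [Fintype ι] [DecidableEq ι] {E : Type} [CommRing E] [StarRing E]

/-- orthogonal cyclic generators with canonical forms; the piece `i` has rank `s i + 1` -/
structure Fam (n : Matrix ι ι E) (κ : Type) where
  v : κ → ι → E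
  s : κ → ℕ
  orth : ∀ i i' j, i ≠ i' → hf (v i) ((n ^ j) *ᵥ v i') = 0
  zero : ∀ i j, j ≠ s i → hf (v i) ((n ^ j) *ᵥ v i) = 0
  kill : ∀ i, (n ^ (s i + 1)) *ᵥ v i = 0
  unit : ∀ i, IsUnit (hf (v i) ((n ^ (s i)) *ᵥ v i))

namespace Fam

variable {n : Matrix ι ι E} {κ : Type} (D : Fam n κ)

/-- the index set -/
abbrev J : Type := Σ i : κ, Fin (D.s i + 1)

/-- the basis vectors -/
def b (t : D.J) : ι → E := (n ^ (t.2 : ℕ)) *ᵥ D.v t.1

/-- the opposite index -/
def σ (t : D.J) : D.J := ⟨t.1, Fin.rev t.2⟩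

theorem σ_val (t : D.J) : ((D.σ t).2 : ℕ) = D.s t.1 - t.2 := by
  show ((Fin.rev t.2 : Fin _) : ℕ) = _
  rw [Fin.val_rev]
  omega

theorem σ_σ (t : D.J) : D.σ (D.σ t) = t := by
  rcases t with ⟨i, j⟩
  show (⟨i, Fin.rev (Fin.rev j)⟩ : D.J) = ⟨i, j⟩
  rw [Fin.rev_rev]

theorem gram (hn : star n = -n) (t t' : D.J) (h : t' ≠ t) : hf (D.b (D.σ t)) (D.b t') = 0 := by
  rw [b, b, hf_pow_left hn, mulVec_mulVec, ← pow_add]
  by_cases h1 : t.1 = t'.1
  · rcases t with ⟨i, j⟩
    rcases t' with ⟨i', j'⟩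
    have h1' : i = i' := h1
    subst h1'
    have h2 : (j : ℕ) ≠ j' := fun h2 => h (by rw [Fin.ext h2])
    have h3 := D.σ_val ⟨i, j⟩
    have h4 : (j : ℕ) < D.s i + 1 := j.2
    have h5 : hf (D.v i) ((n ^ (((D.σ ⟨i, j⟩).2 : ℕ) + j')) *ᵥ D.v i) = 0 := by
      refine D.zero i _ ?_
      rw [h3]
      simp only
      omega
    show (-1) ^ _ * hf (D.v i) ((n ^ (((D.σ ⟨i, j⟩).2 : ℕ) + j')) *ᵥ D.v i) = 0
    rw [h5, mul_zero]
  · show (-1) ^ _ * hf (D.v t.1) ((n ^ (((D.σ t).2 : ℕ) + t'.2)) *ᵥ D.v t'.1) = 0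
    rw [D.orth t.1 t'.1 _ h1, mul_zero]

theorem gram_unit (hn : star n = -n) (t : D.J) : IsUnit (hf (D.b (D.σ t)) (D.b t)) := by
  rw [b, b, hf_pow_left hn, mulVec_mulVec, ← pow_add]
  have h4 : (t.2 : ℕ) < D.s t.1 + 1 := t.2.2
  have h3 : ((D.σ t).2 : ℕ) + t.2 = D.s t.1 := by
    rw [D.σ_val]
    omega
  rw [h3]
  refine IsUnit.mul ?_ (D.unit t.1)
  exact (isUnit_one.neg).pow _

theorem exists_w (hn : star n = -n) : ∃ w : D.J → E, ∀ t, w t * hf (D.b (D.σ t)) (D.b t) = 1 := by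
  choose w hw using fun t => (D.gram_unit hn t).exists_left_inv
  exact ⟨w, hw⟩

/-- the orthogonal complement -/
def perp (n : Matrix ι ι E) (D : Fam n κ) : Submodule E (ι → E) where
  carrier := {x | ∀ i j, hf (D.v i) ((n ^ j) *ᵥ x) = 0}
  add_mem' := by
    intro x y hx hy i j
    rw [mulVec_add, hf_add_right, hx i j, hy i j, add_zero]
  zero_mem' := by
    intro i j
    rw [mulVec_zero, hf_zero_right]
  smul_mem' := by
    intro a x hx i j
    rw [mulVec_smul, hf_smul_right, hx i j, mul_zero]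

theorem mem_perp {x : ι → E} : x ∈ D.perp ↔ ∀ i j, hf (D.v i) ((n ^ j) *ᵥ x) = 0 := Iff.rfl

theorem perp_stable : ∀ x ∈ D.perp, n *ᵥ x ∈ D.perp := by
  intro x hx i j
  rw [mulVec_mulVec, ← pow_succ]
  exact hx i _

theorem hf_b_perp (hn : star n = -n) (t : D.J) {x : ι → E} (hx : x ∈ D.perp) : hf (D.b t) x = 0 := by
  rw [b, hf_pow_left hn, hx, mul_zero]

theorem mem_perp_of (hn : star n = -n) {x : ι → E} (h : ∀ t, hf (D.b t) x = 0) : x ∈ D.perp := by
  intro i j
  rcases lt_or_ge j (D.s i + 1) with hj | hj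
  · have h1 := h ⟨i, ⟨j, hj⟩⟩
    rw [b, hf_pow_left hn] at h1
    have h2 : ((-1 : E) ^ j) * ((-1) ^ j * hf (D.v i) ((n ^ j) *ᵥ x)) = 0 := by
      have h3 : (-1 : E) ^ j * hf (D.v i) ((n ^ j) *ᵥ x) = 0 := h1
      rw [h3, mul_zero]
    rwa [← mul_assoc, neg_one_pow_mul_self, one_mul] at h2
  · have h1 : hf ((n ^ j) *ᵥ D.v i) x = 0 := by
      rw [pow_mulVec_zero hj (D.kill i), hf_zero_left]
    rw [hf_pow_left hn] at h1
    have h2 : ((-1 : E) ^ j) * ((-1) ^ j * hf (D.v i) ((n ^ j) *ᵥ x)) = 0 := by rw [h1, mul_zero]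
    rwa [← mul_assoc, neg_one_pow_mul_self, one_mul] at h2

section fin

variable [Fintype κ]

/-- the projection -/
theorem sub_proj_mem (hn : star n = -n) {w : D.J → E} (hw : ∀ t, w t * hf (D.b (D.σ t)) (D.b t) = 1) (x : ι → E) :
    x - ∑ t, (hf (D.b (D.σ t)) x * w t) • D.b t ∈ D.perp := by
  refine D.mem_perp_of hn fun t' => ?_
  obtain ⟨t, rfl⟩ : ∃ t, t' = D.σ t := ⟨D.σ t', (D.σ_σ t').symm⟩
  rw [hf_sub_right, hf_sum_right, Finset.sum_eq_single t]
  · rw [hf_smul_right, mul_assoc, hw, mul_one, sub_self]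
  · intro t' _ ht'
    rw [hf_smul_right, D.gram hn t t' ht', mul_zero]
  · intro h
    exact absurd (mem_univ t) h

theorem linInd (hn : star n = -n) : LinearIndependent E D.b := by
  obtain ⟨w, hw⟩ := D.exists_w hn
  rw [Fintype.linearIndependent_iff]
  intro g hg t
  have h1 : hf (D.b (D.σ t)) (∑ t', g t' • D.b t') = g t * hf (D.b (D.σ t)) (D.b t) := by
    rw [hf_sum_right, Finset.sum_eq_single t]
    · rw [hf_smul_right]
    · intro t' _ ht'
      rw [hf_smul_right, D.gram hn t t' ht', mul_zero]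
    · intro h
      exact absurd (mem_univ t) h
  rw [hg, hf_zero_right] at h1
  calc g t = g t * (w t * hf (D.b (D.σ t)) (D.b t)) := by rw [hw, mul_one]
    _ = w t * (g t * hf (D.b (D.σ t)) (D.b t)) := by ring
    _ = 0 := by rw [← h1, mul_zero]

theorem card_le [Nontrivial E] (hn : star n = -n) : Fintype.card D.J ≤ Fintype.card ι := by
  have h1 := (D.linInd hn).fintype_card_le_finrank
  rwa [Module.finrank_fintype_fun_eq_card] at h1

/-- the orthogonal complement contains a generator of a further piece -/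
theorem exists_gen (hG : Gd E) (hn : star n = -n) {p : ℕ} (hp : n ^ p = 0) (hne : ∃ x ∈ D.perp, x ≠ 0) :
    ∃ s : ℕ, ∃ v ∈ D.perp, (n ^ (s + 1)) *ᵥ v = 0 ∧ IsUnit (hf v ((n ^ s) *ᵥ v)) := by
  classical
  -- the nilpotency index of `n` on the complement
  have hex : ∃ s : ℕ, ∀ x ∈ D.perp, (n ^ s) *ᵥ x = 0 := ⟨p, fun x _ => by rw [hp, zero_mulVec]⟩
  have h0 : Nat.find hex ≠ 0 := by
    intro h0
    obtain ⟨x, hx, hx0⟩ := hne
    have := Nat.find_spec hex x hx
    rw [h0, pow_zero, one_mulVec] at this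
    exact hx0 this
  obtain ⟨s, hs⟩ := Nat.exists_eq_succ_of_ne_zero h0
  have hkill : ∀ x ∈ D.perp, (n ^ (s + 1)) *ᵥ x = 0 := by
    have := Nat.find_spec hex
    rwa [hs] at this
  obtain ⟨w, hw, hw0⟩ : ∃ w ∈ D.perp, (n ^ s) *ᵥ w ≠ 0 := by
    have := Nat.find_min hex (m := s) (by omega)
    push Not at this
    exact this
  have hstab : ∀ j, ∀ x ∈ D.perp, (n ^ j) *ᵥ x ∈ D.perp := by
    intro j
    induction j with
    | zero => intro x hx; rwa [pow_zero, one_mulVec]
    | succ j ih =>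
      intro x hx
      rw [pow_succ', ← mulVec_mulVec]
      exact D.perp_stable _ (ih x hx)
  -- a vector of the complement
  obtain ⟨u, hu, hu0⟩ : ∃ u ∈ D.perp, hf u ((n ^ s) *ᵥ w) ≠ 0 := by
    by_contra hno
    push Not at hno
    apply hw0
    apply eq_zero_of_hf
    intro x
    obtain ⟨c, hc⟩ := D.exists_w hn
    have h1 := hno _ (D.sub_proj_mem hn hc x)
    rw [hf_sub_left, hf_sum_left, Finset.sum_eq_zero, sub_zero] at h1
    · exact h1
    · intro t _
      rw [hf_smul_left, D.hf_b_perp hn t (hstab s w hw), mul_zero]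
  refine ⟨s, ?_⟩
  by_contra hno
  push Not at hno
  have hzero : ∀ v ∈ D.perp, hf v ((n ^ s) *ᵥ v) = 0 := by
    intro v hv
    by_contra h3
    refine hno v hv (hkill v hv) ?_
    have h4 := star_hf_pow hn s v v
    rcases Nat.even_or_odd s with h5 | h5
    · rw [h5.neg_one_pow, one_mul] at h4
      exact hG.isUnit_of_sym h4 h3
    · rw [h5.neg_one_pow, neg_one_mul] at h4
      exact hG.isUnit_of_skew h4 h3
  have hpol : ∀ γ : E, γ * hf u ((n ^ s) *ᵥ w) + (-1) ^ s * star (γ * hf u ((n ^ s) *ᵥ w)) = 0 := by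
    intro γ
    have h3 := hzero (u + γ • w) (D.perp.add_mem hu (D.perp.smul_mem γ hw))
    rw [mulVec_add, mulVec_smul, hf_add_left, hf_add_right, hf_add_right, hf_smul_left, hf_smul_left, hf_smul_right,
      hf_smul_right, hzero u hu, hzero w hw, mul_zero, mul_zero, add_zero, zero_add] at h3
    have h4 := star_hf_pow hn s u w
    have h5 : hf w ((n ^ s) *ᵥ u) = (-1) ^ s * star (hf u ((n ^ s) *ᵥ w)) := by
      rw [h4, ← mul_assoc, neg_one_pow_mul_self, one_mul]
    rw [h5] at h3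
    rw [star_mul', ← h3]
    ring
  rcases Nat.even_or_odd s with h5 | h5
  · obtain ⟨γ, hγ⟩ := hG.trace hu0
    have := hpol γ
    rw [h5.neg_one_pow, one_mul] at this
    exact hγ this
  · obtain ⟨k, hk, hks⟩ := hG.skew
    obtain ⟨γ, hγ⟩ := hG.trace hu0
    have h6 := hpol (k * γ)
    rw [h5.neg_one_pow, neg_one_mul, mul_assoc, star_mul', hks] at h6
    apply hγ
    have h7 : k * (γ * hf u ((n ^ s) *ᵥ w) + star (γ * hf u ((n ^ s) *ᵥ w))) = 0 := by
      rw [← h6]; ring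
    exact (hk.mul_right_eq_zero).1 h7

/-- extension of a family -/
theorem extend (hG : Gd E) (hn : star n = -n) (h2 : IsUnit (2 : E)) {p : ℕ} (hp : n ^ p = 0)
    (hne : ∃ x ∈ D.perp, x ≠ 0) : ∃ D' : Fam n (Option κ), ∀ i, D'.s (some i) = D.s i := by
  obtain ⟨s, v, hv, hs, hu⟩ := D.exists_gen hG hn hp hne
  obtain ⟨v', hv', hs', hu', hz'⟩ := can hn h2 D.perp_stable hv hs hu
  refine ⟨⟨fun o => o.elim v' D.v, fun o => o.elim s D.s, ?_, ?_, ?_, ?_⟩, fun i => rfl⟩
  · rintro (_ | i) (_ | i') j hij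
    · exact absurd rfl hij
    · show hf v' ((n ^ j) *ᵥ D.v i') = 0
      have h3 := hv' i' j
      rw [← star_hf, hf_pow_left hn, h3, mul_zero, star_zero]
    · exact hv' i j
    · exact D.orth i i' j (fun h => hij (by rw [h]))
  · rintro (_ | i) j hj
    · exact hz' j hj
    · exact D.zero i j hj
  · rintro (_ | i)
    · exact hs'
    · exact D.kill i
  · rintro (_ | i)
    · exact hu'
    · exact D.unit i

theorem card_J : Fintype.card D.J = ∑ i, (D.s i + 1) := by
  rw [Fintype.card_sigma]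
  simp

end fin

/-- **The orthogonal cyclic decomposition.** -/
theorem exists_full (hG : Gd E) (hn : star n = -n) (h2 : IsUnit (2 : E)) {p : ℕ} (hp : n ^ p = 0) :
    ∃ (κ : Type) (_ : Fintype κ) (_ : DecidableEq κ) (D : Fam n κ), ∀ x ∈ D.perp, x = 0 := by
  classical
  have : Nontrivial E := hG.nontrivial
  have key : ∀ (m : ℕ) (κ : Type) (_ : Fintype κ) (D : Fam n κ), Fintype.card ι ≤ Fintype.card D.J + m →
      ∃ (κ : Type) (_ : Fintype κ) (_ : DecidableEq κ) (D : Fam n κ), ∀ x ∈ D.perp, x = 0 := by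
    intro m
    induction m with
    | zero =>
      intro κ _ D hm
      by_cases h : ∃ x ∈ D.perp, x ≠ 0
      · obtain ⟨D', hD'⟩ := D.extend hG hn h2 hp h
        have h3 := D'.card_le hn
        rw [card_J, Fintype.sum_option] at h3
        rw [card_J] at hm
        have h4 : ∑ i, (D'.s (some i) + 1) = ∑ i, (D.s i + 1) := sum_congr rfl fun i _ => by rw [hD' i]
        omega
      · push Not at h
        exact ⟨κ, inferInstance, inferInstance, D, h⟩
    | succ m ih =>
      intro κ _ D hm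
      by_cases h : ∃ x ∈ D.perp, x ≠ 0
      · obtain ⟨D', hD'⟩ := D.extend hG hn h2 hp h
        refine ih (Option κ) inferInstance D' ?_
        rw [card_J, Fintype.sum_option]
        rw [card_J] at hm
        have h4 : ∑ i, (D'.s (some i) + 1) = ∑ i, (D.s i + 1) := sum_congr rfl fun i _ => by rw [hD' i]
        omega
      · push Not at h
        exact ⟨κ, inferInstance, inferInstance, D, h⟩
  let D0 : Fam n Empty := ⟨fun i => i.elim, fun i => i.elim, fun i => i.elim, fun i => i.elim, fun i => i.elim,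
    fun i => i.elim⟩
  exact key (Fintype.card ι) Empty inferInstance D0 (by omega)

end Fam

end Cfsg.Agent.H901.CA
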