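import Cfsg.Agent.H308.CA.Stmts

/-!
# Skew nilpotent elements: orthogonal cyclic decomposition (helper901, for S3852)
-/

set_option autoImplicit false
set_option linter.unusedSectionVars false

namespace Cfsg.Agent.H901.CA

open Finset Matrix Cfsg.Agent.H308.CA

section form

variable {ι : Type} [Fintype ι] {E : Type} [CommRing E] [StarRing E]

/-- the hermitian form -/
def hf (v w : ι → E) : E := star v ⬝ᵥ w

theorem hf_add_left (u v w : ι → E) : hf (u + v) w = hf u w + hf v w := by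
  rw [hf, star_add, add_dotProduct]; rfl

theorem hf_add_right (u v w : ι → E) : hf u (v + w) = hf u v + hf u w := by
  rw [hf, dotProduct_add]; rfl

theorem hf_sub_left (u v w : ι → E) : hf (u - v) w = hf u w - hf v w := by
  rw [hf, star_sub, sub_dotProduct]; rfl

theorem hf_sub_right (u v w : ι → E) : hf u (v - w) = hf u v - hf u w := by
  rw [hf, dotProduct_sub]; rfl

theorem hf_smul_left (a : E) (v w : ι → E) : hf (a • v) w = star a * hf v w := by
  rw [hf, star_smul, smul_dotProduct, smul_eq_mul]; rfl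

theorem hf_smul_right (a : E) (v w : ι → E) : hf v (a • w) = a * hf v w := by
  rw [hf, dotProduct_smul, smul_eq_mul]; rfl

theorem hf_zero_right (v : ι → E) : hf v (0 : ι → E) = 0 := dotProduct_zero _

theorem hf_zero_left (v : ι → E) : hf (0 : ι → E) v = 0 := by
  rw [hf, star_zero, zero_dotProduct]

theorem hf_sum_right {J : Type*} (s : Finset J) (v : ι → E) (f : J → ι → E) :
    hf v (∑ t ∈ s, f t) = ∑ t ∈ s, hf v (f t) := by
  classical
  induction s using Finset.induction_on with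
  | empty => rw [sum_empty, sum_empty, hf_zero_right]
  | insert a s ha ih => rw [sum_insert ha, sum_insert ha, hf_add_right, ih]

theorem hf_sum_left {J : Type*} (s : Finset J) (v : ι → E) (f : J → ι → E) :
    hf (∑ t ∈ s, f t) v = ∑ t ∈ s, hf (f t) v := by
  classical
  induction s using Finset.induction_on with
  | empty => rw [sum_empty, sum_empty, hf_zero_left]
  | insert a s ha ih => rw [sum_insert ha, sum_insert ha, hf_add_left, ih]

theorem star_hf (v w : ι → E) : star (hf v w) = hf w v := by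
  rw [hf, hf, dotProduct, dotProduct, star_sum]
  refine sum_congr rfl fun i _ => ?_
  rw [star_mul, Pi.star_apply, star_star, Pi.star_apply]

variable [DecidableEq ι]

theorem hf_mulVec_left (A : Matrix ι ι E) (v w : ι → E) : hf (A *ᵥ v) w = hf v (star A *ᵥ w) := by
  rw [hf, hf, star_mulVec, ← dotProduct_mulVec]; rfl

theorem eq_zero_of_hf {w : ι → E} (h : ∀ v, hf v w = 0) : w = 0 := by
  funext i
  have h1 := h (Pi.single i 1)
  rw [hf, dotProduct] at h1
  rw [Finset.sum_eq_single i] at h1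
  · simpa using h1
  · intro j _ hj
    rw [Pi.star_apply, Pi.single_eq_of_ne hj, star_zero, zero_mul]
  · intro h2
    exact absurd (mem_univ i) h2

variable {n : Matrix ι ι E}

theorem star_pow_skew (hn : star n = -n) (j : ℕ) : star (n ^ j) = (-1 : E) ^ j • n ^ j := by
  rw [star_pow, hn, ← neg_one_smul E n, smul_pow]

theorem hf_pow_left (hn : star n = -n) (j : ℕ) (v w : ι → E) : hf ((n ^ j) *ᵥ v) w = (-1) ^ j * hf v ((n ^ j) *ᵥ w) := by
  rw [hf_mulVec_left, star_pow_skew hn, smul_mulVec, hf_smul_right]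

theorem star_hf_pow (hn : star n = -n) (j : ℕ) (v w : ι → E) :
    star (hf v ((n ^ j) *ᵥ w)) = (-1) ^ j * hf w ((n ^ j) *ᵥ v) := by
  rw [star_hf, hf_pow_left hn]

theorem pow_mulVec_add (j k : ℕ) (v : ι → E) : (n ^ (j + k)) *ᵥ v = (n ^ j) *ᵥ ((n ^ k) *ᵥ v) := by
  rw [mulVec_mulVec, ← pow_add]

theorem pow_mulVec_zero {s j : ℕ} (hj : s ≤ j) {v : ι → E} (hs : (n ^ s) *ᵥ v = 0) : (n ^ j) *ᵥ v = 0 := by
  obtain ⟨k, rfl⟩ := Nat.exists_eq_add_of_le hj
  rw [add_comm, pow_mulVec_add, hs, mulVec_zero]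

theorem neg_one_pow_mul_self (j : ℕ) : ((-1 : E) ^ j) * (-1) ^ j = 1 := by
  rw [← mul_pow]; simp

/-- one step of the canonicalization -/
theorem can_step (hn : star n = -n) (h2 : IsUnit (2 : E)) {v : ι → E} {s j : ℕ} (hj : j < s)
    (hs : (n ^ (s + 1)) *ᵥ v = 0) (hu : IsUnit (hf v ((n ^ s) *ᵥ v)))
    (hz : ∀ l, j < l → l < s → hf v ((n ^ l) *ᵥ v) = 0) :
    ∃ a : E, hf (v + a • ((n ^ (s - j)) *ᵥ v)) ((n ^ s) *ᵥ (v + a • ((n ^ (s - j)) *ᵥ v))) = hf v ((n ^ s) *ᵥ v) ∧
      ∀ l, j ≤ l → l < s → hf (v + a • ((n ^ (s - j)) *ᵥ v)) ((n ^ l) *ᵥ (v + a • ((n ^ (s - j)) *ᵥ v))) = 0 := by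
  obtain ⟨w, hw⟩ := hu.exists_right_inv
  obtain ⟨t, ht⟩ := h2.exists_right_inv
  set i := s - j with hi
  set c := fun l => hf v ((n ^ l) *ᵥ v) with hc
  have hexp : ∀ (a : E) (l : ℕ), hf (v + a • ((n ^ i) *ᵥ v)) ((n ^ l) *ᵥ (v + a • ((n ^ i) *ᵥ v))) =
      c l + a * c (l + i) + star a * ((-1) ^ i * c (l + i)) + star a * a * ((-1) ^ i * c (l + i + i)) := by
    intro a l
    rw [mulVec_add, mulVec_smul, mulVec_mulVec, ← pow_add, hf_add_left, hf_add_right, hf_add_right, hf_smul_left,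
      hf_smul_left, hf_smul_right, hf_smul_right, hf_pow_left hn, hf_pow_left hn, mulVec_mulVec, mulVec_mulVec,
      ← pow_add, ← pow_add]
    rw [show i + l = l + i by omega, show i + (l + i) = l + i + i by omega]
    simp only [hc]
    ring
  have hc0 : ∀ l, s < l → c l = 0 := by
    intro l hl
    simp only [hc]
    rw [pow_mulVec_zero (by omega : s + 1 ≤ l) hs, hf_zero_right]
  have hstar : ∀ l, star (c l) = (-1) ^ l * c l := fun l => star_hf_pow hn l v v
  have hstw : star w = (-1) ^ s * w := by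
    have h3 : star (c s) * star w = 1 := by
      rw [← star_mul', hw, star_one]
    rw [hstar] at h3
    calc star w = ((-1) ^ s * (-1) ^ s) * star w * (c s * w) := by rw [neg_one_pow_mul_self, hw]; ring
      _ = (((-1) ^ s * c s) * star w) * ((-1) ^ s * w) := by ring
      _ = (-1) ^ s * w := by rw [h3, one_mul]
  have hstt : star t = t := by
    have h3 : (2 : E) * star t = 1 := by
      have h4 := congrArg star ht
      rwa [star_mul', star_one, star_ofNat] at h4
    calc star t = (2 * t) * star t := by rw [ht, one_mul]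
      _ = (2 * star t) * t := by ring
      _ = t := by rw [h3, one_mul]
  have hsta : star (-(c j * w * t)) = (-1) ^ i * -(c j * w * t) := by
    rw [star_neg, star_mul', star_mul', hstar, hstw, hstt]
    have h3 : ((-1 : E)) ^ i = (-1) ^ j * (-1) ^ s := by
      rw [← pow_add, hi]
      have h4 : j + s = (s - j) + 2 * j := by omega
      rw [h4, pow_add, pow_mul]
      simp
    rw [h3]
    ring
  refine ⟨-(c j * w * t), ?_, ?_⟩
  · rw [hexp, hc0 (s + i) (by omega), hc0 (s + i + i) (by omega)]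
    simp only [hc]
    ring
  · intro l hl hl'
    rw [hexp, hc0 (l + i + i) (by omega), hsta]
    rcases eq_or_lt_of_le hl with h | h
    · subst h
      rw [show j + i = s by omega]
      have h3 := neg_one_pow_mul_self (E := E) i
      calc c j + -(c j * w * t) * c s + (-1) ^ i * -(c j * w * t) * ((-1) ^ i * c s) +
            (-1) ^ i * -(c j * w * t) * -(c j * w * t) * ((-1) ^ i * 0) =
            c j + -(c j * w * t) * c s + ((-1) ^ i * (-1) ^ i) * (-(c j * w * t) * c s) := by ring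
        _ = c j - c j * (c s * w) * (2 * t) := by rw [h3]; ring
        _ = 0 := by rw [hw, ht]; ring
    · rw [hc0 (l + i) (by omega)]
      simp only [hc]
      rw [hz l h hl']
      ring

/-- **canonical generators** -/
theorem can (hn : star n = -n) (h2 : IsUnit (2 : E)) {W : Submodule E (ι → E)} (hW : ∀ x ∈ W, n *ᵥ x ∈ W) {v : ι → E}
    (hv : v ∈ W) {s : ℕ} (hs : (n ^ (s + 1)) *ᵥ v = 0) (hu : IsUnit (hf v ((n ^ s) *ᵥ v))) :
    ∃ v' ∈ W, (n ^ (s + 1)) *ᵥ v' = 0 ∧ IsUnit (hf v' ((n ^ s) *ᵥ v')) ∧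
      ∀ l, l ≠ s → hf v' ((n ^ l) *ᵥ v') = 0 := by
  have hWp : ∀ j, ∀ x ∈ W, (n ^ j) *ᵥ x ∈ W := by
    intro j
    induction j with
    | zero => intro x hx; rwa [pow_zero, one_mulVec]
    | succ j ih =>
      intro x hx
      rw [pow_succ', ← mulVec_mulVec]
      exact hW _ (ih x hx)
  have key : ∀ k, k ≤ s → ∃ v' ∈ W, (n ^ (s + 1)) *ᵥ v' = 0 ∧ IsUnit (hf v' ((n ^ s) *ᵥ v')) ∧
      ∀ l, s ≤ l + k → l < s → hf v' ((n ^ l) *ᵥ v') = 0 := by
    intro k
    induction k with
    | zero => intro _; exact ⟨v, hv, hs, hu, fun l h1 h2 => absurd h2 (by omega)⟩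
    | succ k ih =>
      intro hk
      obtain ⟨v', hv', hs', hu', hz'⟩ := ih (by omega)
      obtain ⟨a, ha1, ha2⟩ := can_step hn h2 (j := s - (k + 1)) (by omega) hs' hu'
        (fun l h3 h4 => hz' l (by omega) h4)
      refine ⟨_, W.add_mem hv' (W.smul_mem a (hWp _ _ hv')), ?_, ha1.symm ▸ hu', fun l h3 h4 => ha2 l (by omega) h4⟩
      rw [mulVec_add, mulVec_smul, hs', mulVec_mulVec, ← pow_add, pow_mulVec_zero (by omega : s + 1 ≤ _) hs', smul_zero,
        add_zero]
  obtain ⟨v', hv', hs', hu', hz'⟩ := key s le_rfl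
  refine ⟨v', hv', hs', hu', fun l hl => ?_⟩
  rcases lt_or_gt_of_ne hl with h | h
  · exact hz' l (by omega) h
  · rw [pow_mulVec_zero (by omega : s + 1 ≤ l) hs', hf_zero_right]

end form

end Cfsg.Agent.H901.CA
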